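import Cfsg.Agent.H846.RatB.Layer
import Cfsg.Agent.H984.SLFin
import Cfsg.Agent.H60.MultA
import Cfsg.Agent.H487.SchurPerfect

/-!
# S4891, task 4374 (helper775, for helper846): the rational character of degree `q - 1` of `SL₂(q)`, `q = 3 ^ f`, `f` odd

* `exists_conj_mem` : elements without eigenvector are conjugate into a fixed nonsplit torus;
* `exists_rat`      : an irreducible character of `SL₂(q)` of degree `q - 1`, integer valued, which only depends on the
  order of the element, and is negated by the central involution;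
* `slTask`          : the task.
-/

set_option autoImplicit false
set_option linter.unusedSectionVars false

namespace Cfsg.Agent.H775.RatB

open Cfsg Matrix Cfsg.Agent.H984.SLTwo Cfsg.Agent.H846.RatB

universe u

section

variable {F : Type*} [Field F] [DecidableEq F] [Fintype F]

local notation "SL" => Matrix.SpecialLinearGroup (Fin 2) F
local notation "M₂" => Matrix (Fin 2) (Fin 2) F

/-- Every element without eigenvector is conjugate to an element of the torus. -/
theorem exists_conj_mem (h2 : ringChar F ≠ 2) {g c : SL} (hg : Ell (g : M₂)) (hc : Ell (c : M₂)) :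
    ∃ k ∈ Subgroup.centralizer ({g} : Set SL), IsConj k c ∧ NS (k : M₂) := by
  classical
  set C := Subgroup.centralizer ({g} : Set SL) with hC
  have hcard : Nat.card C = Fintype.card F + 1 := card_cent_ell g hg
  have hn : 0 < Fintype.card F + 1 := Nat.succ_pos _
  have : Fintype C := Fintype.ofFinite C
  have hcard' : Fintype.card C = Fintype.card F + 1 := by
    rw [← hcard, Nat.card_eq_fintype_card (α := C)]
  have hsurj : ∀ z ∈ Polynomial.nthRootsFinset (Fintype.card F + 1) (1 : AlgebraicClosure F),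
      ∃ k ∈ (Finset.univ : Finset C), mu g hg k = z := by
    intro z hz
    obtain ⟨k, hk, hz'⟩ := Finset.surj_on_of_inj_on_of_card_le
      (s := (Finset.univ : Finset C))
      (t := Polynomial.nthRootsFinset (Fintype.card F + 1) (1 : AlgebraicClosure F))
      (fun k _ => mu g hg k)
      (fun k _ => by
        rw [Polynomial.mem_nthRootsFinset hn, ← map_pow, ← hcard, pow_card_eq_one', map_one])
      (fun a b _ _ hab => mu_injective g hg hab)
      (by
        rw [Finset.card_univ, hcard', Polynomial.nthRootsFinset_def]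
        exact (Multiset.toFinset_card_le _).trans (Polynomial.card_nthRoots _ _))
      z hz
    exact ⟨k, hk, hz'.symm⟩
  have hcm : c ∈ Subgroup.centralizer ({c} : Set SL) := Subgroup.mem_centralizer_singleton_iff.2 rfl
  have hz : mu c hc ⟨c, hcm⟩ ∈
      Polynomial.nthRootsFinset (Fintype.card F + 1) (1 : AlgebraicClosure F) := by
    rw [Polynomial.mem_nthRootsFinset hn, ← map_pow, ← card_cent_ell c hc, pow_card_eq_one', map_one]
  obtain ⟨k, -, hk⟩ := hsurj _ hz
  have h1 := mu_add_inv g hg k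
  have h2' := mu_add_inv c hc ⟨c, hcm⟩
  have h3 : mu g hg k⁻¹ = mu c hc (⟨c, hcm⟩⁻¹) := by
    have e1 : mu g hg k * mu g hg k⁻¹ = 1 := by rw [← map_mul, mul_inv_cancel, map_one]
    have e2 : mu c hc ⟨c, hcm⟩ * mu c hc (⟨c, hcm⟩⁻¹) = 1 := by
      rw [← map_mul, mul_inv_cancel, map_one]
    rw [hk] at e1
    have h0 : mu c hc ⟨c, hcm⟩ ≠ 0 := left_ne_zero_of_mul_eq_one e1
    exact mul_left_cancel₀ h0 (e1.trans e2.symm)
  rw [hk, h3, h2'] at h1
  have htr : tr ((k : SL) : M₂) = tr (c : M₂) :=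
    ((algebraMap F (AlgebraicClosure F)).injective h1).symm
  have h4 : tr (c : M₂) ^ 2 ≠ 4 := hc.tr_ne.resolve_right h2
  have hNS : NS ((k : SL) : M₂) := by
    by_contra hns
    apply h4
    rw [← htr]
    rcases scalar_cases hns with h | h
    · rw [h, tr_upp (by simp)]
      simp; norm_num
    · rw [h, tr_upp (by simp)]
      simp; norm_num
  exact ⟨k, k.2, isConj_of_tr hNS hc.NS htr (Or.inr (by rw [htr]; exact h4)), hNS⟩

theorem not_NS_of_mem_center' {z : SL} (hz : z ∈ Subgroup.center SL) : ¬ NS (z : M₂) := by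
  rw [Matrix.SpecialLinearGroup.mem_center_iff] at hz
  obtain ⟨r, _, hr⟩ := hz
  rw [← hr]
  intro h
  simp [NS] at h

/-- `1`, `z`, unipotent times central, split, or conjugate into the torus. -/
theorem elt_cases (h2 : ringChar F ≠ 2) {g : SL} (hg : Ell (g : M₂)) (c : SL) :
    (∃ (a : Fˣ) (x : F), IsConj (upp a x) c) ∨
      ∃ k ∈ Subgroup.centralizer ({g} : Set SL), IsConj k c ∧ NS (k : M₂) := by
  by_cases hc : Ell (c : M₂)
  · exact Or.inr (exists_conj_mem h2 hg hc)
  · left
    unfold Ell at hc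
    push Not at hc
    obtain ⟨a, v, hv, h⟩ := hc
    have h1 := (conj_col (withCol v hv 0) c a).mpr (by rw [col_withCol]; exact h)
    have hB : (withCol v hv 0)⁻¹ * c * withCol v hv 0 ∈ Bor F := mem_Bor.mpr h1.1
    have hx := exists_upp hB
    exact ⟨Units.mk0 _ (ne_zero_of_mem_Bor hB), _, isConj_iff.2 ⟨withCol v hv 0, by
      rw [← hx]; group⟩⟩

theorem upp_zero_pow (a : Fˣ) (n : ℕ) : (upp a 0 : SL) ^ n = upp (a ^ n) 0 := by
  induction n with
  | zero => rw [pow_zero, pow_zero, upp_one_zero]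
  | succ n ih =>
    rw [pow_succ, ih, pow_succ]
    apply Matrix.SpecialLinearGroup.ext
    intro i j
    rw [Matrix.SpecialLinearGroup.coe_mul, coe_upp, coe_upp, coe_upp]
    fin_cases i <;> fin_cases j <;> simp [Matrix.mul_apply, mul_comm]

theorem isConj_split {a : Fˣ} (ha : a⁻¹ ≠ a) (x : F) : IsConj (upp a x : SL) (upp a 0) := by
  have hd : (a : F) - ((a⁻¹ : Fˣ) : F) ≠ 0 := by
    intro h
    exact ha (Units.ext (sub_eq_zero.1 h).symm)
  rw [isConj_iff]
  obtain ⟨y, hy⟩ : ∃ y : F, y * ((a : F) - ((a⁻¹ : Fˣ) : F)) = x := ⟨_, div_mul_cancel₀ x hd⟩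
  refine ⟨upp 1 y, ?_⟩
  rw [mul_inv_eq_iff_eq_mul]
  apply Matrix.SpecialLinearGroup.ext
  intro i j
  rw [Matrix.SpecialLinearGroup.coe_mul, Matrix.SpecialLinearGroup.coe_mul, coe_upp, coe_upp, coe_upp]
  rw [← hy]
  fin_cases i <;> fin_cases j <;> simp [Matrix.mul_apply]
  ring

theorem orderOf_split {a : Fˣ} (ha : a⁻¹ ≠ a) (x : F) : orderOf (upp a x : SL) = orderOf a := by
  rw [orderOf_of_isConj (isConj_split ha x)]
  have key : ∀ n : ℕ, (upp a 0 : SL) ^ n = 1 ↔ a ^ n = 1 := by
    intro n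
    rw [upp_zero_pow, ← upp_one_zero]
    exact ⟨fun h => (upp_inj h).1, fun h => by rw [h]⟩
  exact orderOf_eq_orderOf_iff.2 key

/-- the character values as a function of the order -/
def val (q n : ℕ) : ℤ :=
  if n = 1 then q - 1 else if n = 2 then -(q - 1) else if n = 3 then -1 else if n = 6 then 1
  else if n ∣ q - 1 then 0 else if 4 ∣ n then 0 else if 2 ∣ n then 2 else -2

variable {g : Matrix.SpecialLinearGroup (Fin 2) F}

theorem order_two_eq (hg : Ell (g : M₂)) {y : SL}
    (hy : y ∈ Subgroup.centralizer ({g} : Set SL)) (h : y ^ 2 = 1) (h1 : y ≠ 1) : y = z0 := by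
  have hns : ¬ NS (y : M₂) := by
    intro hns
    apply ne_inv_of_NS hg hy hns
    rw [eq_inv_iff_mul_eq_one, ← sq, h]
  rcases scalar_cases hns with h | h
  · exact absurd (h.trans upp_one_zero) h1
  · exact h

/-- the value `-(t + t⁻¹)` -/
theorem torus_val {t : ℂˣ} {n : ℕ} (h4 : t ^ 4 = 1) (hn : t ^ n = 1) (hz : 2 ∣ n → (t : ℂ) ^ (n / 2) = -1) :
    -((t : ℂ) + ((t⁻¹ : ℂˣ) : ℂ)) = ((if 4 ∣ n then 0 else if 2 ∣ n then 2 else -2 : ℤ) : ℂ) := by
  have h4' : (t : ℂ) ^ 4 = 1 := by rw [← Units.val_pow_eq_pow_val, h4, Units.val_one]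
  have hn' : (t : ℂ) ^ n = 1 := by rw [← Units.val_pow_eq_pow_val, hn, Units.val_one]
  have hinv : (t : ℂ) * ((t⁻¹ : ℂˣ) : ℂ) = 1 := by simp
  by_cases hd : 4 ∣ n
  · rw [if_pos hd]
    obtain ⟨m, rfl⟩ := hd
    have h := hz ⟨2 * m, by ring⟩
    rw [show 4 * m / 2 = 2 * m by omega, pow_mul] at h
    have h5 : ((t : ℂ) ^ 2 - 1) * ((t : ℂ) ^ 2 + 1) = 0 := by linear_combination h4'
    rcases mul_eq_zero.1 h5 with h6 | h6
    · rw [sub_eq_zero.1 h6, one_pow] at h
      norm_num at h
    · have : (t : ℂ) * ((t : ℂ) + ((t⁻¹ : ℂˣ) : ℂ)) = 0 := by linear_combination h6 + hinv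
      have h0 := (mul_eq_zero.1 this).resolve_left t.ne_zero
      rw [h0]; simp
  · rw [if_neg hd]
    by_cases hd2 : 2 ∣ n
    · rw [if_pos hd2]
      have h := hz hd2
      obtain ⟨m, rfl⟩ := hd2
      have hodd : m % 2 = 1 := by omega
      obtain ⟨k, hk⟩ : ∃ k, m = 2 * k + 1 := ⟨m / 2, by omega⟩
      subst hk
      have e : (t : ℂ) ^ 2 = 1 := by
        have : (t : ℂ) ^ (2 * (2 * k + 1)) = ((t : ℂ) ^ 4) ^ k * (t : ℂ) ^ 2 := by ring
        rw [this, h4', one_pow, one_mul] at hn'
        exact hn'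
      rw [show 2 * (2 * k + 1) / 2 = 2 * k + 1 by omega, pow_succ, pow_mul, e, one_pow, one_mul] at h
      rw [h] at hinv ⊢
      have h7 : ((t⁻¹ : ℂˣ) : ℂ) = -1 := by linear_combination -hinv
      rw [h7]; norm_num
    · rw [if_neg hd2]
      have e : (t : ℂ) = 1 := by
        have hcop : Nat.Coprime 4 n := by
          have : Nat.Coprime 2 n := (Nat.prime_two.coprime_iff_not_dvd).2 hd2
          exact Nat.Coprime.pow_left 2 this
        have h8 : t ^ (Nat.gcd 4 n) = 1 := pow_gcd_eq_one.2 ⟨h4, hn⟩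
        rw [hcop, pow_one] at h8
        rw [h8, Units.val_one]
      rw [e] at hinv ⊢
      have h7 : ((t⁻¹ : ℂˣ) : ℂ) = 1 := by linear_combination hinv
      rw [h7]; norm_num

theorem X_eq_val [CharP F 3] (hg : Ell (g : M₂))
    {θ : Subgroup.centralizer ({g} : Set SL) →* ℂˣ} {α : MulChar F ℂ} (hα : α (-1) = -1)
    (hz : (θ ⟨z0, z0_mem g⟩ : ℂ) = -1) (h4 : ∀ x, θ x ^ 4 = 1) (c : SL) :
    X θ α c = (val (Fintype.card F) (orderOf c) : ℂ) := by
  have h2 : ringChar F ≠ 2 := by
    rw [ringChar.eq F 3]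
    norm_num
  have h3 : 3 ∣ Fintype.card F := by
    obtain ⟨n, -, hn⟩ := FiniteField.card F 3
    rw [hn]
    exact dvd_pow_self 3 n.ne_zero
  have hq1 : 1 < Fintype.card F := Fintype.one_lt_card
  have hpar : α (-1) = (θ ⟨z0, z0_mem g⟩ : ℂ) := by rw [hα, hz]
  have hcl := isClassFunction_X (g := g) θ α
  have hcj : ∀ {a b : SL}, IsConj a b → X θ α a = X θ α b := by
    intro a b hab
    obtain ⟨x, rfl⟩ := isConj_iff.1 hab
    exact (hcl _ _).symm
  rcases elt_cases h2 hg c with ⟨a, x, hx⟩ | ⟨k, hk, hkc, hNS⟩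
  · rw [← hcj hx, ← orderOf_of_isConj hx]
    by_cases ha : a⁻¹ = a
    · rcases inv_eq_self_cases ha with rfl | rfl
      · by_cases hx0 : x = 0
        · subst hx0
          rw [upp_one_zero, orderOf_one, X_one hg]
          simp [val]
        · rw [orderOf_upp_one 3 hx0, X_upp_ne hg θ α inv_one hx0]
          simp [val]
      · by_cases hx0 : x = 0
        · subst hx0
          have ho : orderOf (upp (-1) 0 : SL) = 2 := orderOf_eq_prime (by rw [sq]; exact z0_mul_self) (z0_ne_one h2)
          have hv := X_z0 (g := g) hg hpar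
          rw [show (z0 : SL) = upp (-1) 0 from rfl] at hv
          rw [ho, hv, hα]
          simp [val]
        · have hx0' : -x ≠ 0 := neg_ne_zero.2 hx0
          have e : (upp (-1) x : SL) = z0 * upp 1 (-x) := by rw [z0_mul_upp, neg_neg]
          have ho : orderOf (upp (-1) x : SL) = 6 := by
            have h2' : orderOf (z0 : SL) = 2 := orderOf_eq_prime (by rw [sq]; exact z0_mul_self) (z0_ne_one h2)
            have h3' := orderOf_upp_one (F := F) 3 hx0'
            rw [e, Commute.orderOf_mul_eq_mul_orderOf_of_coprime (z0_comm _) (by rw [h2', h3']; norm_num), h2', h3']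
          rw [ho, X_upp_ne hg θ α neg_one_inv hx0]
          simp [val, hα]
    · rw [X_upp_split hg θ α ha, orderOf_split ha]
      have hd : orderOf a ∣ Fintype.card F - 1 := by
        rw [← Fintype.card_units]
        exact orderOf_dvd_card
      have n1 : orderOf a ≠ 1 := by
        intro h
        rw [orderOf_eq_one_iff] at h
        subst h
        exact ha inv_one
      have n2 : orderOf a ≠ 2 := by
        intro h
        apply ha
        rw [inv_eq_iff_mul_eq_one, ← sq, ← h, pow_orderOf_eq_one]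
      have n3 : ¬ 3 ∣ orderOf a := by
        intro h
        have := h.trans hd
        omega
      have n3' : orderOf a ≠ 3 := fun h => n3 (by rw [h])
      have n6 : orderOf a ≠ 6 := fun h => n3 (by rw [h]; norm_num)
      rw [val, if_neg n1, if_neg n2, if_neg n3', if_neg n6, if_pos hd, Int.cast_zero]
  · rw [← hcj hkc, ← orderOf_of_isConj hkc, X_ell hg θ α hk hNS]
    set n := orderOf k with hn
    have hd : n ∣ Fintype.card F + 1 := by
      rw [← card_cent_ell g hg, hn, ← Subgroup.orderOf_mk k hk]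
      exact orderOf_dvd_natCard _
    have n1 : n ≠ 1 := by
      intro h
      rw [hn, orderOf_eq_one_iff] at h
      subst h
      exact not_NS_upp (F := F) inv_one (by rw [upp_one_zero]; exact hNS)
    have n2 : n ≠ 2 := by
      intro h
      apply ne_inv_of_NS hg hk hNS
      have h5 := pow_orderOf_eq_one k
      rw [← hn, h] at h5
      rw [eq_inv_iff_mul_eq_one, ← sq, h5]
    have n3 : ¬ 3 ∣ n := by
      intro h
      have := h.trans hd
      omega
    have n3' : n ≠ 3 := fun h => n3 (by rw [h])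
    have n6 : n ≠ 6 := fun h => n3 (by rw [h]; norm_num)
    have nq : ¬ n ∣ Fintype.card F - 1 := by
      intro h
      have h5 := Nat.dvd_sub hd h
      rw [show Fintype.card F + 1 - (Fintype.card F - 1) = 2 by omega] at h5
      have h6 := Nat.le_of_dvd (by norm_num) h5
      have h7 : n ≠ 0 := by
        rintro h0
        rw [h0] at h5
        omega
      omega
    rw [val, if_neg n1, if_neg n2, if_neg n3', if_neg n6, if_neg nq]
    refine torus_val (h4 _) ?_ ?_
    · rw [← map_pow]
      have : (⟨k, hk⟩ : Subgroup.centralizer ({g} : Set SL)) ^ n = 1 := by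
        apply Subtype.ext
        simp [hn, pow_orderOf_eq_one]
      rw [this, map_one]
    · intro h2n
      have hk2 : k ^ (n / 2) = z0 := by
        apply order_two_eq hg (pow_mem hk _)
        · rw [← pow_mul, Nat.div_mul_cancel h2n, hn, pow_orderOf_eq_one]
        · intro h
          have h5 := orderOf_dvd_of_pow_eq_one h
          rw [← hn] at h5
          have hpos : 0 < n := orderOf_pos k
          have h6 := Nat.le_of_dvd (by omega) h5
          omega
      rw [← Units.val_pow_eq_pow_val, ← map_pow]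
      have : (⟨k, hk⟩ : Subgroup.centralizer ({g} : Set SL)) ^ (n / 2) = ⟨z0, z0_mem g⟩ := by
        apply Subtype.ext
        simp [hk2]
      rw [this, hz]

theorem card_mod_eight [CharP F 3] (h4 : Fintype.card F % 4 = 3) : Fintype.card F % 8 = 3 := by
  obtain ⟨n, -, hn⟩ := FiniteField.card F 3
  rw [hn] at h4 ⊢
  have key : ∀ m : ℕ, 3 ^ m % 8 = 1 ∨ 3 ^ m % 8 = 3 := by
    intro m
    induction m with
    | zero => left; norm_num
    | succ m ih => rw [pow_succ]; omega
  rcases key n with h | h <;> omega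

theorem exists_theta (h2 : ringChar F ≠ 2) (h8 : Fintype.card F % 8 = 3) (hg : Ell (g : M₂)) :
    ∃ θ : Subgroup.centralizer ({g} : Set SL) →* ℂˣ, (θ ⟨z0, z0_mem g⟩ : ℂ) = -1 ∧ (∀ x, θ x ^ 4 = 1) ∧
      θ ^ 2 ≠ 1 := by
  have hcyc := isCyclic_cent g hg
  have hcard := card_cent_ell g hg
  obtain ⟨γ, hγ⟩ := IsCyclic.exists_generator (α := Subgroup.centralizer ({g} : Set SL))
  have ho : orderOf γ = Fintype.card F + 1 := by
    rw [← hcard]
    exact orderOf_eq_card_of_forall_mem_zpowers hγ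
  let i : ℂˣ := Units.mk0 Complex.I Complex.I_ne_zero
  have hi : (i : ℂ) = Complex.I := rfl
  have hi2 : (i : ℂ) ^ 2 = -1 := by rw [hi, Complex.I_sq]
  have hi4 : i ^ 4 = 1 := by
    apply Units.ext
    rw [Units.val_pow_eq_pow_val, Units.val_one, show (4 : ℕ) = 2 * 2 by norm_num, pow_mul, hi2]
    norm_num
  have hord : orderOf i ∣ orderOf γ := by
    refine (orderOf_dvd_of_pow_eq_one hi4).trans ?_
    rw [ho]
    omega
  let θ := monoidHomOfForallMemZpowers hγ hord
  have hθγ : θ γ = i := monoidHomOfForallMemZpowers_apply_gen hγ hord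
  refine ⟨θ, ?_, ?_, ?_⟩
  · obtain ⟨j, hj⟩ := Subgroup.mem_zpowers_iff.1 (hγ ⟨z0, z0_mem g⟩)
    have hz1 : (⟨z0, z0_mem g⟩ : Subgroup.centralizer ({g} : Set SL)) ≠ 1 := by
      intro h
      exact z0_ne_one h2 (congrArg Subtype.val h)
    have hz2 : (⟨z0, z0_mem g⟩ : Subgroup.centralizer ({g} : Set SL)) ^ 2 = 1 := by
      apply Subtype.ext
      simp [sq, z0_mul_self]
    have e1 : ((Fintype.card F + 1 : ℕ) : ℤ) ∣ j * 2 := by
      rw [← ho, orderOf_dvd_iff_zpow_eq_one, _root_.zpow_mul, hj]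
      exact_mod_cast hz2
    have e2 : ¬ ((Fintype.card F + 1 : ℕ) : ℤ) ∣ j := by
      rw [← ho, orderOf_dvd_iff_zpow_eq_one, hj]
      exact hz1
    rw [← hj, map_zpow, hθγ, Units.val_zpow_eq_zpow_val]
    obtain ⟨k, hk⟩ : ∃ k : ℤ, ((Fintype.card F + 1 : ℕ) : ℤ) = 4 * (2 * k + 1) := by
      refine ⟨((Fintype.card F / 8 : ℕ) : ℤ), ?_⟩
      have := Nat.div_add_mod (Fintype.card F) 8
      omega
    rw [hk] at e1 e2
    obtain ⟨t, ht⟩ := e1
    have hj2 : j = 2 * ((2 * k + 1) * t) := by linarith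
    have htodd : Odd t := by
      by_contra hne
      rw [Int.not_odd_iff_even] at hne
      obtain ⟨s, rfl⟩ := hne
      apply e2
      exact ⟨s, by rw [hj2]; ring⟩
    have hodd : Odd ((2 * k + 1) * t) := Odd.mul ⟨k, rfl⟩ htodd
    rw [hj2, _root_.zpow_mul, show (i : ℂ) ^ (2 : ℤ) = -1 by exact_mod_cast hi2]
    exact hodd.neg_one_zpow
  · intro x
    obtain ⟨j, hj⟩ := Subgroup.mem_zpowers_iff.1 (hγ x)
    rw [← hj, map_zpow, hθγ, ← zpow_natCast, ← _root_.zpow_mul, mul_comm, _root_.zpow_mul, zpow_natCast, hi4, _root_.one_zpow]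
  · intro h
    have h1 : (θ γ) ^ 2 = 1 := by rw [← MonoidHom.pow_apply, h, MonoidHom.one_apply]
    rw [hθγ] at h1
    have h3 : (i : ℂ) ^ 2 = 1 := by rw [← Units.val_pow_eq_pow_val, h1, Units.val_one]
    rw [hi2] at h3
    norm_num at h3

/-- **The rational character of degree `q - 1`**, `q = 3 ^ f`, `f` odd. -/
theorem exists_rat [CharP F 3] (h4 : Fintype.card F % 4 = 3) :
    ∃ ψ : SL → ℂ, IsIrrCharacter SL ψ ∧ ψ 1 = (Fintype.card F : ℂ) - 1 ∧ (∀ x, ψ (z0 * x) = -ψ x) ∧
      ∀ x, ψ x = (val (Fintype.card F) (orderOf x) : ℂ) := by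
  have h2 : ringChar F ≠ 2 := by
    rw [ringChar.eq F 3]
    norm_num
  obtain ⟨g, hg⟩ := exists_ell (F := F)
  obtain ⟨θ, hz, ht4, ht2⟩ := exists_theta h2 (card_mod_eight h4) hg
  obtain ⟨α, hα, -⟩ := exists_alpha (F := F) h2 (ε := -1) (Or.inr rfl)
  have hpar : α (-1) = (θ ⟨z0, z0_mem g⟩ : ℂ) := by rw [hα, hz]
  have hirr := isIrr_X h2 hg hpar ht2
  refine ⟨X θ α, hirr, X_one hg θ α, ?_, X_eq_val hg hα hz ht4⟩
  intro x
  obtain ⟨ε, -, hε⟩ := exists_parity hirr
  have h3 := hε 1
  rw [mul_one, X_z0 hg hpar, X_one hg, hα] at h3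
  have h5 : ε = -1 := by
    have h6 : ((Fintype.card F : ℂ) - 1) ≠ 0 := by
      rw [sub_ne_zero]
      exact_mod_cast (Fintype.one_lt_card (α := F)).ne'
    apply mul_right_cancel₀ h6
    linear_combination -h3
  rw [hε, h5, neg_one_mul]

end

theorem pratC_of_int {G : Type*} {ψ : G → ℂ} {v : G → ℤ} (h : ∀ x, ψ x = (v x : ℂ)) : PRatC 3 ψ := by
  refine ⟨1, by norm_num, fun x => ?_⟩
  rw [h]
  exact intCast_mem _ _

theorem slTask : SLTask.{u} := by
  intro E _ _ Z hZ hZ3 hE F _ _ _ h4 h3 hf ν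
  classical
  obtain ⟨f, hfs, hfk⟩ := hf
  by_cases hν : ν = 1
  · refine ⟨1, Cfsg.Agent.Characters.Core.isIrr_one, ?_, ?_, ?_, ?_⟩
    · intro z x
      rw [hν]
      simp
    · have : charDegree (1 : E → ℂ) = 1 := by simp [charDegree]
      rw [this]
      norm_num
    · exact pratC_of_int (v := fun _ => 1) (by intro x; simp)
    · intro α _ _ x
      rfl
  have hqd : 3 ∣ Fintype.card F := by
    obtain ⟨n, -, hn⟩ := FiniteField.card F 3
    rw [hn]
    exact dvd_pow_self 3 n.ne_zero
  have h2 : ringChar F ≠ 2 := by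
    rw [ringChar.eq F 3]
    norm_num
  have hok : Cfsg.Agent.H60.MultA.Ok 2 (Nat.card F) := by
    rw [Nat.card_eq_fintype_card]
    refine ⟨le_rfl, fun _ => by omega, ?_⟩
    simp only [Set.mem_insert_iff, Set.mem_singleton_iff, Prod.mk.injEq, not_or, not_and]
    refine ⟨fun _ => by omega, fun _ => by omega, fun h => by omega, fun h => by omega, fun h => by omega⟩
  let π : Matrix.SpecialLinearGroup (Fin 2) F →* Matrix.ProjectiveSpecialLinearGroup (Fin 2) F :=
    QuotientGroup.mk' (Subgroup.center (Matrix.SpecialLinearGroup (Fin 2) F))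
  have hπs : Function.Surjective π := QuotientGroup.mk'_surjective _
  have hπk : π.ker = Subgroup.center (Matrix.SpecialLinearGroup (Fin 2) F) := QuotientGroup.ker_mk' _
  obtain ⟨φ, hφ⟩ := H487.exists_lift_of_trivial ⟨Cfsg.Agent.H60.MultA.perfect_SL hok⟩
    (Cfsg.Agent.H60.MultA.hasTrivial_SL hok) π hfs (by rw [hfk]; exact hZ)
  have hstem : Cfsg.IsStemExtension f := ⟨hfs, by rw [hfk]; exact hZ, by rw [hE]; exact le_top⟩
  have hφs : Function.Surjective φ := by
    have h1 := H487.commutator_eq_map_of_central (τ := f) (φ := φ) (by rw [hfk]; exact hZ) (by rw [hφ]; exact hπs)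
    rw [hE, Cfsg.Agent.H60.MultA.perfect_SL hok, ← MonoidHom.range_eq_map] at h1
    exact MonoidHom.range_eq_top.1 h1.symm
  have hcent : ∀ y : Matrix.SpecialLinearGroup (Fin 2) F, y ∈ Subgroup.center (Matrix.SpecialLinearGroup (Fin 2) F) →
      y = 1 ∨ y = z0 := by
    intro y hy
    rcases scalar_cases (not_NS_of_mem_center' hy) with h | h
    · left
      rw [h, upp_one_zero]
    · right
      exact h
  have hZφ : ∀ z ∈ Z, z = 1 ∨ z = φ z0 := by
    intro z hz
    obtain ⟨y, rfl⟩ := hφs z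
    have hy : y ∈ Subgroup.center (Matrix.SpecialLinearGroup (Fin 2) F) := by
      rw [← hπk, MonoidHom.mem_ker, ← hφ, MonoidHom.comp_apply, ← MonoidHom.mem_ker, hfk]
      exact hz
    rcases hcent y hy with rfl | rfl
    · left
      exact map_one φ
    · right
      rfl
  have hz0Z : φ z0 ∈ Z := by
    rw [← hfk, MonoidHom.mem_ker, ← MonoidHom.comp_apply, hφ, ← MonoidHom.mem_ker, hπk]
    exact z0_mem_center
  have hz01 : φ z0 ≠ 1 := by
    intro h
    apply hν
    ext ⟨z, hz⟩
    have : (⟨z, hz⟩ : Z) = 1 := by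
      apply Subtype.ext
      rcases hZφ z hz with h1 | h1
      · exact h1
      · exact h1.trans h
    rw [this, map_one, map_one]
  have hφi : Function.Injective φ := by
    rw [injective_iff_map_eq_one]
    intro y hy
    have hyc : y ∈ Subgroup.center (Matrix.SpecialLinearGroup (Fin 2) F) := by
      rw [← hπk, MonoidHom.mem_ker, ← hφ, MonoidHom.comp_apply, hy, map_one]
    rcases hcent y hyc with h | rfl
    · exact h
    · exact absurd hy hz01
  let e : Matrix.SpecialLinearGroup (Fin 2) F ≃* E := MulEquiv.ofBijective φ ⟨hφi, hφs⟩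
  have he : ∀ x, e x = φ x := fun _ => rfl
  obtain ⟨ψ, hirr, h1, hneg, hval⟩ := exists_rat (F := F) h4
  have ho : ∀ x : E, orderOf (e.symm x) = orderOf x := fun x => e.symm.orderOf_eq x
  refine ⟨ψ ∘ e.symm, ?_, ?_, ?_, ?_, ?_⟩
  · exact Cfsg.Agent.Characters.Core.isIrr_comp e.symm.toMonoidHom e.symm.surjective hirr
  · rintro ⟨z, hz⟩ x
    rcases hZφ z hz with rfl | rfl
    · have : (⟨1, hz⟩ : Z) = 1 := rfl
      rw [this, map_one]
      simp
    · have hν1 : (ν ⟨φ z0, hz⟩ : ℂ) = -1 := by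
        have hsq : ν ⟨φ z0, hz⟩ * ν ⟨φ z0, hz⟩ = 1 := by
          rw [← map_mul]
          have : (⟨φ z0, hz⟩ : Z) * ⟨φ z0, hz⟩ = 1 := by
            apply Subtype.ext
            change φ z0 * φ z0 = 1
            rw [← map_mul, z0_mul_self, map_one]
          rw [this, map_one]
        have hsq' : (ν ⟨φ z0, hz⟩ : ℂ) * (ν ⟨φ z0, hz⟩ : ℂ) = 1 := by
          rw [← Units.val_mul, hsq, Units.val_one]
        rcases mul_self_eq_one_iff.1 hsq' with h | h
        · exfalso
          apply hν
          ext ⟨z, hz'⟩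
          rcases hZφ z hz' with rfl | rfl
          · have : (⟨1, hz'⟩ : Z) = 1 := rfl
            rw [this, map_one, map_one]
          · simpa using h
        · exact h
      simp only [Function.comp_apply]
      rw [hν1, map_mul]
      have : e.symm (φ z0) = z0 := by rw [← he, e.symm_apply_apply]
      rw [this, ← z0_comm, hneg]
      ring
  · have hdeg : charDegree (ψ ∘ e.symm) = Fintype.card F - 1 := by
      have h0 : (ψ ∘ e.symm) 1 = ((Fintype.card F - 1 : ℕ) : ℂ) := by
        rw [Function.comp_apply, map_one, h1, Nat.cast_sub (Fintype.card_pos (α := F)), Nat.cast_one]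
      rw [charDegree, h0]
      simp
    rw [hdeg]
    omega
  · exact pratC_of_int (v := fun x => val (Fintype.card F) (orderOf (e.symm x))) (fun x => hval _)
  · intro α _ _ x
    simp only [Function.comp_apply]
    rw [hval, hval, ho, ho, α.orderOf_eq]

end Cfsg.Agent.H775.RatB
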